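import Cfsg.Agent.H903.QF.SevenB
import Cfsg.Agent.H231.QF.Defs

/-!
# S2491, row F4 = `²E₆(2)`, box E7 (helper903), part C: the element of order `7` of `P₂` and its fixed points on `V₂`

`T1_of` : from the lift `d0` of `W7` (helper287) and the descent (helper374).
-/

set_option autoImplicit false
set_option linter.unusedSectionVars false
set_option linter.unusedVariables false

namespace Cfsg.Agent.H903.QF.SevenC

open CoxeterSystem Cfsg.Agent.ChevalleyStructure.CoxeterGeom Cfsg.Agent.Tits.Roots Cfsg.Agent.Tits.Core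
  Cfsg.Agent.Nodes Cfsg.Agent.Nodes.Reps Cfsg.Agent.Nodes.BNOf Cfsg.Agent.Nodes.RGDLib Cfsg.Agent.Nodes.Bruhat
  Cfsg.Agent.Nodes.OppDec Cfsg.Agent.Nodes.LeviDec Cfsg.Agent.Nodes.StabComb Cfsg.Agent.Nodes.KindChev
  Cfsg.Agent.Nodes.ChevCls
  Cfsg.Agent.OddHalf.NI.ModelChev
  Cfsg.Agent.H928.Ore.Fix
open Cfsg.Lie Cfsg.Agent.ChevalleyStructure Cfsg.Agent.ChevalleyStructure.Elts
  Cfsg.Agent.ChevalleyStructure.CoxeterGeomTypes Cfsg.Agent.Nodes.RGDChev Cfsg.Agent.KFacts.RgdChevCoord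
open Cfsg.Agent.H928.Ore.TwE (inc inc_injective)
open Cfsg.Agent.H231.QF
open Cfsg.Agent.H903.QF.SevenA Cfsg.Agent.H903.QF.SevenB

universe u v

/-- a root of `x ^ 3 - x - 1` -/
theorem exists_ext {F : Type u} [Field F] [Finite F] (h2 : (2 : F) = 0) :
    ∃ (K' : Type u) (_ : Field K') (_ : Finite K') (ι : F →+* K') (a : K'ˣ), (2 : K') = 0 ∧ (a : K') ^ 3 = a + 1 := by
  obtain ⟨p, hp⟩ : ∃ p : Polynomial F, p = Polynomial.X ^ 3 - Polynomial.X - 1 := ⟨_, rfl⟩
  have hdeg : p.degree = 3 := by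
    rw [hp]
    compute_degree!
  obtain ⟨x, hx⟩ := (Polynomial.SplittingField.splits p).exists_eval_eq_zero (by
    rw [Polynomial.degree_map, hdeg]
    norm_num)
  have hmap : p.map (algebraMap F p.SplittingField) = Polynomial.X ^ 3 - Polynomial.X - 1 :=
    (congrArg (Polynomial.map (algebraMap F p.SplittingField)) hp).trans (by
      rw [Polynomial.map_sub, Polynomial.map_sub, Polynomial.map_pow, Polynomial.map_X, Polynomial.map_one])
  rw [hmap] at hx
  simp only [Polynomial.eval_sub, Polynomial.eval_pow, Polynomial.eval_X, Polynomial.eval_one] at hx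
  have hx3 : x ^ 3 = x + 1 := by linear_combination hx
  have hx0 : x ≠ 0 := by
    rintro rfl
    apply one_ne_zero (α := p.SplittingField)
    linear_combination -hx3
  have hfin : Finite p.SplittingField := Module.finite_of_finite F
  refine ⟨p.SplittingField, inferInstance, hfin, algebraMap F p.SplittingField, Units.mk0 x hx0, ?_, hx3⟩
  rw [← map_ofNat (algebraMap F p.SplittingField) 2, h2, map_zero]

section

variable {F : Type u} [Field F] {K' : Type v} [Field K'] (ι : F →+* K')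

theorem bc_yy {r s : ℕ} (hr : r < 72) (hs : s < 72) : bc chevE6 ι (yy F r s) = yy K' r s := by
  unfold yy
  rw [map_mul, bc_xc RGDTwE6.hp ι hr, bc_xc RGDTwE6.hp ι hs, map_one]

theorem bc_W7 : bc chevE6 ι (W7 F) = W7 K' := by
  unfold W7
  rw [map_mul, map_mul, map_mul, map_mul, bc_yy ι (by decide) (by decide), bc_yy ι (by decide) (by decide),
    bc_yy ι (by decide) (by decide), bc_yy ι (by decide) (by decide)]

end

section

variable {F : Type u} [Field F] [Fintype F] {φ : F →+* F} (hF : Fintype.card F = 4)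

include hF

theorem two_zero : (2 : F) = 0 := by
  have h1 : ((Fintype.card F : ℕ) : F) = 0 := Nat.cast_card_eq_zero F
  rw [hF] at h1
  push_cast at h1
  have h2 : (2 : F) * 2 = 0 := by linear_combination h1
  exact mul_self_eq_zero.1 h2

/-- **T1.** -/
theorem T1_of
    (C1 : V φ j2 ≤ (VJ CoxeterMatrix.E₆.toCoxeterSystem RGDTwE6.hp.isCartan (XX chevE6 6 F) J6).comap (inc F 2))
    (C2 : ∀ (K' : Type u) [Field K'] [Finite K'] (ι : F →+* K') (z : KK F), bc chevE6 ι (inc F 2 z) ∈ Z3 K' →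
      z ∈ X φ ![1, 3, 4, 2] ⊔ X φ ![2, 3, 4, 2])
    {d0 : KK F} (hd : inc F 2 d0 = W7 F) :
    orderOf d0 = 7 ∧ ∀ z ∈ V φ j2, d0 * z = z * d0 → z ∈ X φ ![1, 3, 4, 2] ⊔ X φ ![2, 3, 4, 2] := by
  obtain ⟨K', _, _, ι, a, h2, ha⟩ := exists_ext (two_zero hF)
  have hinj : Function.Injective ((bc chevE6 ι).comp (inc F 2)) := by
    rw [MonoidHom.coe_comp]
    exact (bc_injective chevE6 ι).comp (inc_injective 2)
  have e : (bc chevE6 ι).comp (inc F 2) d0 = W7 K' := by
    rw [MonoidHom.comp_apply, hd, bc_W7]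
  refine ⟨?_, fun z hz hc => C2 K' ι z ?_⟩
  · rw [← orderOf_injective _ hinj, e]
    exact order_W7 h2 ha
  · refine fix_W7 h2 ha ?_ ?_
    · exact VJ_le_comap RGDTwE6.hp ι J6 (C1 hz)
    · have := congrArg ((bc chevE6 ι).comp (inc F 2)) hc
      rw [map_mul, map_mul, e] at this
      exact this

end

end Cfsg.Agent.H903.QF.SevenC
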