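import Cfsg.Agent.H928.Ore.TwE
import Cfsg.Agent.H584.Ore.Build

/-!
# S2491, row F4 = `²E₆(2)`, box E7 (helper903), part A: an element of order `7` of the Levi subgroup `A₂ A₂ A₁` of `E₆(K)`

`K` finite of characteristic two, `a ^ 3 = a + 1`. The image of the companion matrix of `x ^ 3 - x - 1` in both
factors `A₂`; its fixed points on the unipotent radical `V_J` lie in the product of the two highest root groups.
-/

set_option autoImplicit false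
set_option linter.unusedSectionVars false
set_option linter.unusedVariables false

namespace Cfsg.Agent.H903.QF.SevenA

open CoxeterSystem Cfsg.Agent.ChevalleyStructure.CoxeterGeom Cfsg.Agent.Tits.Roots Cfsg.Agent.Tits.Core
  Cfsg.Agent.Nodes Cfsg.Agent.Nodes.Reps Cfsg.Agent.Nodes.BNOf Cfsg.Agent.Nodes.RGDLib Cfsg.Agent.Nodes.Bruhat
  Cfsg.Agent.Nodes.OppDec Cfsg.Agent.Nodes.LeviDec Cfsg.Agent.Nodes.StabComb Cfsg.Agent.Nodes.KindChev
  Cfsg.Agent.Nodes.ChevCls Cfsg.Agent.Nodes.NormalForm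
  Cfsg.Agent.OddHalf.NI.ModelChev
  Cfsg.Agent.H162.GaussDec Cfsg.Agent.H162.GaussLevi Cfsg.Agent.H162.GaussSL Cfsg.Agent.H162.GaussReg
  Cfsg.Agent.H162.GaussExc
  Cfsg.Agent.H928.Ore.Frame Cfsg.Agent.H928.Ore.Fix Cfsg.Agent.H928.Ore.Block
open Cfsg.Lie Cfsg.Agent.ChevalleyStructure Cfsg.Agent.ChevalleyStructure.Elts
  Cfsg.Agent.ChevalleyStructure.NPerm
  Cfsg.Agent.ChevalleyStructure.CoxeterGeomTypes Cfsg.Agent.Nodes.RGDChev Cfsg.Agent.KFacts.RgdChevCoord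
open Cfsg.Agent.TitsThree.KExcRT
open Cfsg.Agent.H162.GaussExcMain (exists_hom_D)
open Cfsg.Agent.H584.Ore.Build (comm_blocks Orth)
open Matrix (SpecialLinearGroup)
open Matrix.SpecialLinearGroup (transvection)

open scoped MatrixGroups commutatorElement

universe u v

/-- the nodes `2`, `0` -/
def rA : Fin 3 → Fin 3 → ℕ := ![![0, 42, 57], ![29, 0, 56], ![14, 15, 0]]

/-- the nodes `4`, `5` -/
def rB : Fin 3 → Fin 3 → ℕ := ![![0, 37, 38], ![34, 0, 36], ![33, 35, 0]]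

theorem rtA : RTa chevE6 rA ∧ (RTb chevE6 rA fun _ _ => 1) ∧ RTc chevE6 rA ∧
    ∀ i j, i ≠ j → rA j i = chevE6.neg (rA i j) := by decide +kernel

theorem rtB : RTa chevE6 rB ∧ (RTb chevE6 rB fun _ _ => -1) ∧ RTc chevE6 rB ∧
    ∀ i j, i ≠ j → rB j i = chevE6.neg (rB i j) := by decide +kernel

theorem simp6 : rA 0 1 = chevE6.simple 2 ∧ rA 1 2 = chevE6.simple 0 ∧ rB 0 1 = chevE6.simple 4 ∧ rB 1 2 = chevE6.simple 5 := by
  decide +kernel

theorem ltA : ∀ a b, a ≠ b → rA a b < 72 := by decide +kernel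

theorem ltB : ∀ a b, a ≠ b → rB a b < 72 := by decide +kernel

theorem oAB : Orth chevE6 rA rB := by decide +kernel

theorem oZ : ∀ a b, a ≠ b → (70 ≠ rA a b ∧ 70 ≠ chevE6.neg (rA a b) ∧ chevE6.commTerms (rA a b) 70 = []) ∧
    (71 ≠ rA a b ∧ 71 ≠ chevE6.neg (rA a b) ∧ chevE6.commTerms (rA a b) 71 = []) ∧
    (70 ≠ rB a b ∧ 70 ≠ chevE6.neg (rB a b) ∧ chevE6.commTerms (rB a b) 70 = []) ∧
    (71 ≠ rB a b ∧ 71 ≠ chevE6.neg (rB a b) ∧ chevE6.commTerms (rB a b) 71 = []) := by decide +kernel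

theorem o46 : chevE6.simple 1 = 46 ∧ (70 ≠ 46 ∧ 70 ≠ chevE6.neg 46 ∧ chevE6.commTerms 46 70 = [(71, 1, 1, 1)]) ∧
    (71 ≠ 46 ∧ 71 ≠ chevE6.neg 46 ∧ chevE6.commTerms 46 71 = []) ∧
    (71 ≠ 70 ∧ 71 ≠ chevE6.neg 70 ∧ chevE6.commTerms 70 71 = []) := by decide +kernel

theorem suppA : ∀ a b : Fin 3, a ≠ b → vec chevE6 6 (rA a b) 3 = 0 ∧ vec chevE6 6 (rB a b) 3 = 0 := by decide +kernel

theorem pos70 : (∀ k, 0 ≤ vec chevE6 6 70 k) ∧ (∀ k, 0 ≤ vec chevE6 6 71 k) ∧ vec chevE6 6 70 3 = 3 ∧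
    vec chevE6 6 71 3 = 3 := by decide +kernel

theorem expo : ∀ r : Fin 72, (∀ k, 0 ≤ vec chevE6 6 r k) → r.val = 46 ∨ r.val = 70 ∨ r.val = 71 ∨
    ((chevE6.cartan 2 r + chevE6.cartan 4 r) + 3 * (chevE6.cartan 0 r + chevE6.cartan 5 r)) % 7 ≠ 0 := by decide +kernel

/-- all nodes but the node `3` -/
def J6 : Set (Fin 6) := {k | k ≠ 3}

section

variable {K : Type u} [Field K]

theorem comm_root {r s : ℕ} (hr : r < 72) (hs : s < 72) (h1 : s ≠ r) (h2 : s ≠ chevE6.neg r)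
    (h3 : chevE6.commTerms r s = []) (a b : K) : xc RGDTwE6.hp (vec chevE6 6 r) a * xc RGDTwE6.hp (vec chevE6 6 s) b =
      xc RGDTwE6.hp (vec chevE6 6 s) b * xc RGDTwE6.hp (vec chevE6 6 r) a := by
  have h4 := comm_xG RGDTwE6.hp (K := K) hr hs h1 h2 a b
  have h5 : chevE6.commWord K r s a b = [] := by
    change (chevE6.commTerms r s).map _ = []
    rw [h3, List.map_nil]
  rw [h5, wordG_nil, commutatorElement_def, inv_inv, inv_inv] at h4
  apply Subtype.ext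
  change ((xc RGDTwE6.hp (vec chevE6 6 r) a : ↥(chevE6.group K)) : GL chevE6.Idx K) *
    ((xc RGDTwE6.hp (vec chevE6 6 s) b : ↥(chevE6.group K)) : GL chevE6.Idx K) = _ * _
  rw [coe_xc RGDTwE6.hp hr, coe_xc RGDTwE6.hp hs]
  generalize xG (F := K) RGDTwE6.hp.inList r a = A at h4 ⊢
  generalize xG (F := K) RGDTwE6.hp.inList s b = B at h4 ⊢
  calc A * B = (B * A) * (A⁻¹ * B⁻¹ * A * B) := by group
    _ = B * A * (B⁻¹ * A⁻¹ * B * A)⁻¹ := by group
    _ = B * A := by rw [h4, inv_one, mul_one]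

theorem comm46 (a b : K) : xc RGDTwE6.hp (vec chevE6 6 46) a * xc RGDTwE6.hp (vec chevE6 6 70) b =
      xc RGDTwE6.hp (vec chevE6 6 70) b * xc RGDTwE6.hp (vec chevE6 6 71) (a * b) * xc RGDTwE6.hp (vec chevE6 6 46) a := by
  have h4 := comm_xG RGDTwE6.hp (K := K) (r := 46) (s := 70) (by decide) (by decide) o46.2.1.1 o46.2.1.2.1 (-a) b
  have h5 : chevE6.commWord K 46 70 (-a) b = [(71, a * b)] := by
    change (chevE6.commTerms 46 70).map _ = [(71, a * b)]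
    rw [o46.2.1.2.2, List.map_singleton]
    simp
  rw [h5, wordG_cons, wordG_nil, mul_one, commutatorElement_def, inv_inv, inv_inv, ← xG_inv RGDTwE6.hp.inList, inv_inv] at h4
  apply Subtype.ext
  change ((xc RGDTwE6.hp (vec chevE6 6 46) a : ↥(chevE6.group K)) : GL chevE6.Idx K) *
    ((xc RGDTwE6.hp (vec chevE6 6 70) b : ↥(chevE6.group K)) : GL chevE6.Idx K) =
    ((xc RGDTwE6.hp (vec chevE6 6 70) b : ↥(chevE6.group K)) : GL chevE6.Idx K) *
    ((xc RGDTwE6.hp (vec chevE6 6 71) (a * b) : ↥(chevE6.group K)) : GL chevE6.Idx K) *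
    ((xc RGDTwE6.hp (vec chevE6 6 46) a : ↥(chevE6.group K)) : GL chevE6.Idx K)
  rw [coe_xc RGDTwE6.hp (by decide), coe_xc RGDTwE6.hp (by decide), coe_xc RGDTwE6.hp (by decide)]
  generalize xG (F := K) RGDTwE6.hp.inList 46 a = A at h4 ⊢
  generalize xG (F := K) RGDTwE6.hp.inList 70 b = B at h4 ⊢
  rw [← h4]
  group

/-! ### The torus element -/

/-- the exponents -/
noncomputable def sg (a : Kˣ) : Fin 6 → Kˣ :=
  (Pi.mulSingle 2 a * Pi.mulSingle 0 (a ^ 3)) * (Pi.mulSingle 4 a * Pi.mulSingle 5 (a ^ 3))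

theorem prod_single {r : ℕ} (i : Fin 6) (u : Kˣ) : ∏ k, (((Pi.mulSingle i u : Fin 6 → Kˣ) k : Kˣ) : K) ^ chevE6.cartan k r =
    (u : K) ^ chevE6.cartan i r := by
  rw [Finset.prod_eq_single i]
  · rw [Pi.mulSingle_eq_same]
  · intro k _ hk
    rw [Pi.mulSingle_eq_of_ne hk, Units.val_one, _root_.one_zpow]
  · intro hi; exact absurd (Finset.mem_univ i) hi

theorem prod_mul (s t : Fin 6 → Kˣ) (r : ℕ) : ∏ k : Fin 6, (((s * t) k : Kˣ) : K) ^ chevE6.cartan k r =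
    (∏ k : Fin 6, ((s k : Kˣ) : K) ^ chevE6.cartan k r) * ∏ k : Fin 6, ((t k : Kˣ) : K) ^ chevE6.cartan k r := by
  rw [← Finset.prod_mul_distrib]
  refine Finset.prod_congr rfl fun k _ => ?_
  rw [Pi.mul_apply, Units.val_mul, mul_zpow]

theorem ch_sg (a : Kˣ) {r : ℕ} (hr : r < 72) : ch RGDTwE6.hp (vec chevE6 6 r) (th RGDTwE6.hp (sg a)) =
    ((a ^ ((chevE6.cartan 2 r + chevE6.cartan 4 r) + 3 * (chevE6.cartan 0 r + chevE6.cartan 5 r)) : Kˣ) : K) := by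
  rw [ch_th RGDTwE6.hp hr]
  unfold sg
  rw [prod_mul, prod_mul, prod_mul, prod_single, prod_single, prod_single, prod_single]
  have h0 : (a : K) ≠ 0 := a.ne_zero
  push_cast
  rw [← zpow_natCast, ← zpow_mul, ← zpow_mul, ← zpow_add₀ h0, ← zpow_add₀ h0, ← zpow_add₀ h0]
  congr 1
  have e2 : chevE6.cartan ((2 : Fin 6) : ℕ) r = chevE6.cartan 2 r := rfl
  have e0 : chevE6.cartan ((0 : Fin 6) : ℕ) r = chevE6.cartan 0 r := rfl
  have e4 : chevE6.cartan ((4 : Fin 6) : ℕ) r = chevE6.cartan 4 r := rfl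
  have e5 : chevE6.cartan ((5 : Fin 6) : ℕ) r = chevE6.cartan 5 r := rfl
  rw [e2, e0, e4, e5]
  push_cast
  ring

/-- the group generated by the two highest root groups -/
def Z3 (K : Type u) [Field K] : Subgroup ↥(chevE6.group K) := XX chevE6 6 K (vec chevE6 6 70) ⊔ XX chevE6 6 K (vec chevE6 6 71)

theorem le_norm {G : Type*} [Group G] {A N : Subgroup G} (h : ∀ u ∈ A, ∀ x ∈ N, u * x * u⁻¹ ∈ N) :
    A ≤ Subgroup.normalizer (N : Set G) := by
  intro u hu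
  rw [Subgroup.mem_normalizer_iff]
  intro x
  refine ⟨fun hx => h u hu x hx, fun hx => ?_⟩
  have := h u⁻¹ (inv_mem hu) _ hx
  have e : u⁻¹ * (u * x * u⁻¹) * u⁻¹⁻¹ = x := by group
  rwa [e] at this

theorem mem_sup_of {G : Type*} [Group G] {A N : Subgroup G} (h : ∀ u ∈ A, ∀ x ∈ N, u * x * u⁻¹ ∈ N) {y : G}
    (hy : y ∈ A ⊔ N) : ∃ u ∈ A, ∃ v ∈ N, y = u * v := by
  have h1 : y ∈ ((A ⊔ N : Subgroup G) : Set G) := hy
  rw [Subgroup.coe_mul_of_left_le_normalizer_right _ _ (le_norm h), Set.mem_mul] at h1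
  obtain ⟨l, hl, v, hv, e⟩ := h1
  exact ⟨l, hl, v, hv, e.symm⟩

theorem mem_Z3 {x : ↥(chevE6.group K)} (hx : x ∈ Z3 K) : ∃ a b : K, x = xc RGDTwE6.hp (vec chevE6 6 70) a *
    xc RGDTwE6.hp (vec chevE6 6 71) b := by
  obtain ⟨u, hu, v, hv, rfl⟩ := mem_sup_of (A := XX chevE6 6 K (vec chevE6 6 70)) (N := XX chevE6 6 K (vec chevE6 6 71))
    (fun u hu x hx => by
      obtain ⟨a, rfl⟩ := (mem_XX RGDTwE6.hp (by decide) _).1 hu
      obtain ⟨b, rfl⟩ := (mem_XX RGDTwE6.hp (by decide) _).1 hx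
      rw [comm_root (by decide) (by decide) o46.2.2.2.1 o46.2.2.2.2.1 o46.2.2.2.2.2, mul_inv_cancel_right]
      exact hx) hx
  obtain ⟨a, rfl⟩ := (mem_XX RGDTwE6.hp (by decide) _).1 hu
  obtain ⟨b, rfl⟩ := (mem_XX RGDTwE6.hp (by decide) _).1 hv
  exact ⟨a, b, rfl⟩

theorem norm46 : ∀ u ∈ XX chevE6 6 K (vec chevE6 6 46), ∀ x ∈ Z3 K, u * x * u⁻¹ ∈ Z3 K := by
  intro u hu
  have h1 : Z3 K ≤ (Z3 K).comap (MulAut.conj u).toMonoidHom := by
    refine sup_le (fun x hx => ?_) (fun x hx => ?_)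
    · rw [Subgroup.mem_comap]
      change u * x * u⁻¹ ∈ _
      obtain ⟨a, rfl⟩ := (mem_XX RGDTwE6.hp (by decide) _).1 hu
      obtain ⟨b, rfl⟩ := (mem_XX RGDTwE6.hp (by decide) _).1 hx
      rw [comm46, mul_inv_cancel_right]
      exact mul_mem ((le_sup_left : _ ≤ Z3 K) hx) ((le_sup_right : _ ≤ Z3 K) ((mem_XX RGDTwE6.hp (by decide) _).2 ⟨_, rfl⟩))
    · rw [Subgroup.mem_comap]
      change u * x * u⁻¹ ∈ _
      obtain ⟨a, rfl⟩ := (mem_XX RGDTwE6.hp (by decide) _).1 hu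
      obtain ⟨b, rfl⟩ := (mem_XX RGDTwE6.hp (by decide) _).1 hx
      rw [comm_root (by decide) (by decide) o46.2.2.1.1 o46.2.2.1.2.1 o46.2.2.1.2.2, mul_inv_cancel_right]
      exact (le_sup_right : _ ≤ Z3 K) hx
  exact fun x hx => h1 hx

variable [Finite K]

/-- **Fixed points of the torus element on `V_J`** -/
theorem fix_t {a : Kˣ} (ha : orderOf a = 7) {y : ↥(chevE6.group K)}
    (hy : y ∈ VJ CoxeterMatrix.E₆.toCoxeterSystem RGDTwE6.hp.isCartan (XX chevE6 6 K) J6)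
    (h : th RGDTwE6.hp (sg a) * y = y * th RGDTwE6.hp (sg a)) : y ∈ Z3 K := by
  obtain ⟨p, hpc⟩ := CharP.exists K
  have : Fact p.Prime := ⟨(CharP.char_is_prime_or_zero K p).resolve_right (CharP.char_ne_zero_of_finite K p)⟩
  have hW := finite_W RGDTwE6.hp CoxeterMatrix.E₆.toCoxeterSystem
  have R := rgd (K := K) RGDTwE6.hp CoxeterMatrix.E₆.toCoxeterSystem p
  have ht : th RGDTwE6.hp (sg a) ∈ TT chevE6 K := (thT RGDTwE6.hp (sg a)).2
  have h1 : y ∈ RGD.Sup (XX chevE6 6 K) (RGD.Pos CoxeterMatrix.E₆.toCoxeterSystem RGDTwE6.hp.isCartan) ⊓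
      Subgroup.centralizer {th RGDTwE6.hp (sg a)} :=
    Subgroup.mem_inf.2 ⟨VJ_le_U J6 hy, Subgroup.mem_centralizer_singleton_iff.2 h.symm⟩
  rw [centralizer_U R (Set.singleton_subset_iff.2 ht)] at h1
  have h2 : y ∈ XX chevE6 6 K (vec chevE6 6 46) ⊔ Z3 K := by
    refine RGD.Sup_le (fun z hz => ?_) h1
    obtain ⟨r, hr, rfl⟩ := (isRoot_iff RGDTwE6.hp _ z).1 hz.1
    rintro x ⟨hx, hxc⟩
    obtain ⟨c, rfl⟩ := (mem_XX RGDTwE6.hp hr x).1 hx
    rcases expo ⟨r, hr⟩ hz.2 with h3 | h3 | h3 | h3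
    · have h3' : r = 46 := h3
      subst h3'
      exact (le_sup_left : _ ≤ XX chevE6 6 K (vec chevE6 6 46) ⊔ Z3 K) hx
    · have h3' : r = 70 := h3
      subst h3'
      exact (le_trans (le_sup_left : _ ≤ Z3 K) le_sup_right) hx
    · have h3' : r = 71 := h3
      subst h3'
      exact (le_trans (le_sup_right : _ ≤ Z3 K) le_sup_right) hx
    · have h4 := (act RGDTwE6.hp hr ht).2 c
      have h5 := Subgroup.mem_centralizer_singleton_iff.1 hxc
      rw [← h5, mul_inv_cancel_right] at h4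
      have h6 := xc_inj RGDTwE6.hp hr h4
      rw [ch_sg a hr] at h6
      have h7 : c = 0 := by
        by_contra hc
        have h8 : ((a ^ ((chevE6.cartan 2 r + chevE6.cartan 4 r) + 3 * (chevE6.cartan 0 r + chevE6.cartan 5 r)) : Kˣ) : K) = 1 := by
          have := mul_right_cancel₀ hc ((one_mul c).trans h6)
          exact this.symm
        have h9 := orderOf_dvd_iff_zpow_eq_one.2 (Units.ext h8)
        rw [ha] at h9
        exact h3 (Int.emod_eq_zero_of_dvd h9)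
      rw [h7, xc_zero RGDTwE6.hp hr]
      exact one_mem _
  obtain ⟨u, hu, v, hv, rfl⟩ := mem_sup_of norm46 h2
  have hv' : v ∈ VJ CoxeterMatrix.E₆.toCoxeterSystem RGDTwE6.hp.isCartan (XX chevE6 6 K) J6 := by
    refine (sup_le ?_ ?_ : Z3 K ≤ _) hv
    · refine RGD.le_Sup ⟨isRoot_vec RGDTwE6.hp _ (by decide), pos70.1, 3, fun h => h rfl, ?_⟩
      rw [pos70.2.2.1]; norm_num
    · refine RGD.le_Sup ⟨isRoot_vec RGDTwE6.hp _ (by decide), pos70.2.1, 3, fun h => h rfl, ?_⟩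
      rw [pos70.2.2.2]; norm_num
  have hu' : u ∈ UJ CoxeterMatrix.E₆.toCoxeterSystem RGDTwE6.hp.isCartan (XX chevE6 6 K) J6 := by
    have e : vec chevE6 6 46 = sr (1 : Fin 6) := by
      rw [← vec_simple RGDTwE6.hp 1]
      congr 1
      
    rw [e] at hu
    exact RGD.le_Sup (sr_mem_PosJ (show (1 : Fin 6) ∈ J6 from fun h => absurd h (by decide))) hu
  have h3 : u ∈ UJ CoxeterMatrix.E₆.toCoxeterSystem RGDTwE6.hp.isCartan (XX chevE6 6 K) J6 ⊓
      VJ CoxeterMatrix.E₆.toCoxeterSystem RGDTwE6.hp.isCartan (XX chevE6 6 K) J6 := by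
    have e : u = u * v * v⁻¹ := by group
    refine Subgroup.mem_inf.2 ⟨hu', ?_⟩
    rw [e]
    exact mul_mem hy (inv_mem hv')
  rw [UJ_inf_VJ R J6, Subgroup.mem_bot] at h3
  rw [h3, one_mul]
  exact hv

end

end Cfsg.Agent.H903.QF.SevenA
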