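import Cfsg.Agent.H903.QF.SevenA
import Cfsg.Agent.H928.Ore.TwS

/-!
# S2491, row F4 = `²E₆(2)`, box E7 (helper903), part B: the element of order `7`

`W7 K` : the product of root elements over the prime field. `fix_W7` : over a finite field of characteristic two with a root
of `x ^ 3 - x - 1` its fixed points on `V_J` lie in `Z3`; `W7_pow`, `W7_ne`.
-/

set_option autoImplicit false
set_option linter.unusedSectionVars false
set_option linter.unusedVariables false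

namespace Cfsg.Agent.H903.QF.SevenB

open CoxeterSystem Cfsg.Agent.ChevalleyStructure.CoxeterGeom Cfsg.Agent.Tits.Roots Cfsg.Agent.Tits.Core
  Cfsg.Agent.Nodes Cfsg.Agent.Nodes.Reps Cfsg.Agent.Nodes.BNOf Cfsg.Agent.Nodes.RGDLib Cfsg.Agent.Nodes.Bruhat
  Cfsg.Agent.Nodes.OppDec Cfsg.Agent.Nodes.LeviDec Cfsg.Agent.Nodes.StabComb Cfsg.Agent.Nodes.KindChev
  Cfsg.Agent.Nodes.ChevCls Cfsg.Agent.Nodes.NormalForm
  Cfsg.Agent.OddHalf.NI.ModelChev
  Cfsg.Agent.H162.GaussDec Cfsg.Agent.H162.GaussLevi Cfsg.Agent.H162.GaussSL Cfsg.Agent.H162.GaussReg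
  Cfsg.Agent.H162.GaussExc
  Cfsg.Agent.H928.Ore.Frame Cfsg.Agent.H928.Ore.Fix Cfsg.Agent.H928.Ore.Block
open Cfsg.Lie Cfsg.Agent.ChevalleyStructure Cfsg.Agent.ChevalleyStructure.Elts
  Cfsg.Agent.ChevalleyStructure.NPerm
  Cfsg.Agent.ChevalleyStructure.CoxeterGeomTypes Cfsg.Agent.Nodes.RGDChev Cfsg.Agent.KFacts.RgdChevCoord
open Cfsg.Agent.TitsThree.KExcRT
open Cfsg.Agent.H162.GaussExcMain (exists_hom_D)
open Cfsg.Agent.H584.Ore.Build (comm_blocks Orth)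
open Cfsg.Agent.H928.Ore.TwS (comm_gen)
open Matrix (SpecialLinearGroup)
open Matrix.SpecialLinearGroup (transvection)
open Cfsg.Agent.H903.QF.SevenA

open scoped MatrixGroups commutatorElement

universe u v

/-! ### The matrix -/

section Mat

variable {K : Type u} [Field K]

/-- the companion matrix of `x ^ 3 - x - 1`, characteristic two -/
def tm (K : Type u) [Field K] : SpecialLinearGroup (Fin 3) K :=
  transvection (show (0 : Fin 3) ≠ 1 by decide) (1 : K) * transvection (show (1 : Fin 3) ≠ 2 by decide) (1 : K) *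
    transvection (show (1 : Fin 3) ≠ 0 by decide) (1 : K) * transvection (show (2 : Fin 3) ≠ 1 by decide) (1 : K) *
    transvection (show (1 : Fin 3) ≠ 2 by decide) (1 : K)

theorem coe_tm (h2 : (2 : K) = 0) : ((tm K : SpecialLinearGroup (Fin 3) K) : Matrix (Fin 3) (Fin 3) K) =
    !![0, 0, 1; 1, 0, 1; 0, 1, 0] := by
  have h01 : ∀ c : K, ((transvection (show (0 : Fin 3) ≠ 1 by decide) c :
      Matrix.SpecialLinearGroup (Fin 3) K) : Matrix (Fin 3) (Fin 3) K) = !![1, c, 0; 0, 1, 0; 0, 0, 1] := by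
    intro c; rw [tv_coe]; ext i j; fin_cases i <;> fin_cases j <;> simp [Matrix.single]
  have h10 : ∀ c : K, ((transvection (show (1 : Fin 3) ≠ 0 by decide) c :
      Matrix.SpecialLinearGroup (Fin 3) K) : Matrix (Fin 3) (Fin 3) K) = !![1, 0, 0; c, 1, 0; 0, 0, 1] := by
    intro c; rw [tv_coe]; ext i j; fin_cases i <;> fin_cases j <;> simp [Matrix.single]
  have h12 : ∀ c : K, ((transvection (show (1 : Fin 3) ≠ 2 by decide) c :
      Matrix.SpecialLinearGroup (Fin 3) K) : Matrix (Fin 3) (Fin 3) K) = !![1, 0, 0; 0, 1, c; 0, 0, 1] := by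
    intro c; rw [tv_coe]; ext i j; fin_cases i <;> fin_cases j <;> simp [Matrix.single]
  have h21 : ∀ c : K, ((transvection (show (2 : Fin 3) ≠ 1 by decide) c :
      Matrix.SpecialLinearGroup (Fin 3) K) : Matrix (Fin 3) (Fin 3) K) = !![1, 0, 0; 0, 1, 0; 0, c, 1] := by
    intro c; rw [tv_coe]; ext i j; fin_cases i <;> fin_cases j <;> simp [Matrix.single]
  have h3 : (1 : K) + 1 = 0 := by rw [← h2]; norm_num
  refine (m3 (m3 (m3 (m3 (h01 1) (h12 1)) (h10 1)) (h21 1)) (h12 1)).trans ?_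
  ext i j
  fin_cases i <;> fin_cases j <;> simp [Matrix.mul_apply, Fin.sum_univ_three, h3]

/-- the matrix of the eigenvectors -/
def mP (a : K) (ha : a ^ 3 = a + 1) (h2 : (2 : K) = 0) : SpecialLinearGroup (Fin 3) K :=
  ⟨!![1, 1, 1; a ^ 2, a ^ 4, a; a, a ^ 2, a ^ 4], by
    rw [Matrix.det_fin_three]
    simp only [Matrix.of_apply, Matrix.cons_val', Matrix.cons_val_zero, Matrix.cons_val_one, Matrix.cons_val]
    linear_combination (a ^ 5 + a - 1) * ha + (a ^ 2 - 1) * h2⟩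

theorem pow7 {a : K} (ha : a ^ 3 = a + 1) (h2 : (2 : K) = 0) : a ^ 7 = 1 := by
  linear_combination (a ^ 4 + a ^ 2 + a + 1) * ha + (a ^ 2 + a) * h2

theorem tm_eq {a : Kˣ} (ha : (a : K) ^ 3 = a + 1) (h2 : (2 : K) = 0) :
    tm K = mP (a : K) ha h2 * dg3 a (a ^ 3) * (mP (a : K) ha h2)⁻¹ := by
  rw [eq_mul_inv_iff_mul_eq]
  have h7 : a ^ 7 = 1 := Units.ext (pow7 ha h2)
  have e1 : a⁻¹ * a ^ 3 = a ^ 2 := by group
  have e2 : (a ^ 3)⁻¹ = a ^ 4 := by
    rw [inv_eq_iff_mul_eq_one, ← pow_add]; exact h7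
  apply Subtype.ext
  rw [Matrix.SpecialLinearGroup.coe_mul, Matrix.SpecialLinearGroup.coe_mul, coe_tm h2]
  change !![(0 : K), 0, 1; 1, 0, 1; 0, 1, 0] * !![1, 1, 1; (a : K) ^ 2, (a : K) ^ 4, (a : K); (a : K), (a : K) ^ 2, (a : K) ^ 4] =
    !![1, 1, 1; (a : K) ^ 2, (a : K) ^ 4, (a : K); (a : K), (a : K) ^ 2, (a : K) ^ 4] *
      Matrix.diagonal ![(a : K), ((a⁻¹ * a ^ 3 : Kˣ) : K), (((a ^ 3)⁻¹ : Kˣ) : K)]
  rw [e1, e2]
  push_cast
  have h7' := pow7 ha h2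
  ext i j
  fin_cases i <;> fin_cases j <;> simp [Matrix.mul_apply, Fin.sum_univ_three] <;> ring_nf
  all_goals first
    | linear_combination -ha
    | linear_combination -((a : K) ^ 3 + a + 1) * ha - (a : K) * h2
    | linear_combination (-(a : K) ^ 2 + a - 1) * ha
    | linear_combination -(a : K) * h7'

end Mat

/-! ### The element of the group -/

section

variable {K : Type u} [Field K]

/-- a product of two orthogonal root elements -/
noncomputable def yy (K : Type u) [Field K] (r s : ℕ) : ↥(chevE6.group K) :=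
  xc RGDTwE6.hp (vec chevE6 6 r) (1 : K) * xc RGDTwE6.hp (vec chevE6 6 s) (1 : K)

/-- the element -/
noncomputable def W7 (K : Type u) [Field K] : ↥(chevE6.group K) :=
  yy K 42 37 * yy K 56 36 * yy K 29 34 * yy K 15 35 * yy K 56 36

theorem tabW : rA 0 1 = 42 ∧ rA 1 2 = 56 ∧ rA 1 0 = 29 ∧ rA 2 1 = 15 ∧ rB 0 1 = 37 ∧ rB 1 2 = 36 ∧ rB 1 0 = 34 ∧
    rB 2 1 = 35 := by decide

/-- the two homomorphisms -/
theorem exists_hom : ∃ φA φB : SpecialLinearGroup (Fin 3) K →* ↥(chevE6.group K),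
    (∀ a b (hab : a ≠ b) c, φA (transvection hab c) = xc RGDTwE6.hp (vec chevE6 6 (rA a b)) (((1 : ℤ) : K) * c)) ∧
    (∀ a b (hab : a ≠ b) c, φB (transvection hab c) = xc RGDTwE6.hp (vec chevE6 6 (rB a b)) (((-1 : ℤ) : K) * c)) ∧
    ∃ f : SpecialLinearGroup (Fin 3) K →* ↥(chevE6.group K), ∀ A, f A = φA A * φB A := by
  obtain ⟨φA, hA⟩ := exists_hom_D RGDTwE6.hp (K := K) (ε := 1) (by norm_num) rtA.1 rtA.2.1 rtA.2.2.1 rtA.2.2.2
  obtain ⟨φB, hB⟩ := exists_hom_D RGDTwE6.hp (K := K) (ε := -1) (by norm_num) rtB.1 rtB.2.1 rtB.2.2.1 rtB.2.2.2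
  have hc : ∀ x y, Commute (φA x) (φB y) := comm_blocks RGDTwE6.hp ltA ltB oAB (s₁ := fun _ _ => ((1 : ℤ) : K))
    (s₂ := fun _ _ => ((-1 : ℤ) : K)) hA hB
  refine ⟨φA, φB, hA, hB, ⟨⟨fun A => φA A * φB A, ?_⟩, ?_⟩, fun A => rfl⟩
  · change φA 1 * φB 1 = 1
    rw [map_one, map_one, mul_one]
  · intro A B
    change φA (A * B) * φB (A * B) = φA A * φB A * (φA B * φB B)
    rw [map_mul, map_mul, mul_assoc, ← mul_assoc (φA B), (hc B A).eq, mul_assoc, mul_assoc]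

theorem f_tm (h2 : (2 : K) = 0) {φA φB f : SpecialLinearGroup (Fin 3) K →* ↥(chevE6.group K)}
    (hA : ∀ a b (hab : a ≠ b) c, φA (transvection hab c) = xc RGDTwE6.hp (vec chevE6 6 (rA a b)) (((1 : ℤ) : K) * c))
    (hB : ∀ a b (hab : a ≠ b) c, φB (transvection hab c) = xc RGDTwE6.hp (vec chevE6 6 (rB a b)) (((-1 : ℤ) : K) * c))
    (hf : ∀ A, f A = φA A * φB A) : f (tm K) = W7 K := by
  have h1 : ((-1 : ℤ) : K) * 1 = 1 := by
    push_cast
    linear_combination -h2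
  have h1' : ((1 : ℤ) : K) * 1 = 1 := by
    push_cast
    ring
  unfold tm W7
  rw [map_mul, map_mul, map_mul, map_mul]
  simp only [hf, hA, hB, h1, h1']
  obtain ⟨t1, t2, t3, t4, t5, t6, t7, t8⟩ := tabW
  rw [t1, t2, t3, t4, t5, t6, t7, t8]
  rfl

theorem order_a (h2 : (2 : K) = 0) {a : Kˣ} (ha : (a : K) ^ 3 = a + 1) : orderOf a = 7 := by
  have h7 : a ^ 7 = 1 := Units.ext (pow7 ha h2)
  have : Fact (Nat.Prime 7) := ⟨by norm_num⟩
  refine orderOf_eq_prime_iff.2 ⟨h7, fun h1 => ?_⟩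
  rw [h1, Units.val_one] at ha
  exact one_ne_zero (α := K) (by linear_combination -ha)

/-- `W7` is conjugate to the torus element -/
theorem exists_conj_t (h2 : (2 : K) = 0) {a : Kˣ} (ha : (a : K) ^ 3 = a + 1) :
    ∃ g ∈ LJ CoxeterMatrix.E₆.toCoxeterSystem RGDTwE6.hp.isCartan (TT chevE6 K) (XX chevE6 6 K) J6,
      (∀ z ∈ Z3 K, z * g = g * z) ∧ W7 K = g * th RGDTwE6.hp (sg a) * g⁻¹ := by
  obtain ⟨φA, φB, hA, hB, f, hf⟩ := exists_hom (K := K)
  have hfm : ∀ A, f A ∈ LJ CoxeterMatrix.E₆.toCoxeterSystem RGDTwE6.hp.isCartan (TT chevE6 K) (XX chevE6 6 K) J6 := by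
    intro A
    rw [hf]
    have hk : ∀ k : Fin 6, k ∉ J6 → k = 3 := fun k hk => not_not.1 hk
    exact mul_mem (phi_mem RGDTwE6.hp ltA hA (fun a b hab k hkJ => by rw [hk k hkJ]; exact (suppA a b hab).1) A)
      (phi_mem RGDTwE6.hp ltB hB (fun a b hab k hkJ => by rw [hk k hkJ]; exact (suppA a b hab).2) A)
  have hfz : ∀ A, ∀ z ∈ Z3 K, z * f A = f A * z := by
    intro A z hz
    obtain ⟨c, d, rfl⟩ := mem_Z3 hz
    have k1 : xc RGDTwE6.hp (vec chevE6 6 70) c * φA A = φA A * xc RGDTwE6.hp (vec chevE6 6 70) c :=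
      comm_gen (fun a b hab t => by
        rw [hA]
        exact (comm_root (ltA a b hab) (by decide) (oZ a b hab).1.1 (oZ a b hab).1.2.1 (oZ a b hab).1.2.2 _ _).symm) A
    have k2 : xc RGDTwE6.hp (vec chevE6 6 71) d * φA A = φA A * xc RGDTwE6.hp (vec chevE6 6 71) d :=
      comm_gen (fun a b hab t => by
        rw [hA]
        exact (comm_root (ltA a b hab) (by decide) (oZ a b hab).2.1.1 (oZ a b hab).2.1.2.1 (oZ a b hab).2.1.2.2 _ _).symm) A
    have k3 : xc RGDTwE6.hp (vec chevE6 6 70) c * φB A = φB A * xc RGDTwE6.hp (vec chevE6 6 70) c :=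
      comm_gen (fun a b hab t => by
        rw [hB]
        exact (comm_root (ltB a b hab) (by decide) (oZ a b hab).2.2.1.1 (oZ a b hab).2.2.1.2.1 (oZ a b hab).2.2.1.2.2 _
          _).symm) A
    have k4 : xc RGDTwE6.hp (vec chevE6 6 71) d * φB A = φB A * xc RGDTwE6.hp (vec chevE6 6 71) d :=
      comm_gen (fun a b hab t => by
        rw [hB]
        exact (comm_root (ltB a b hab) (by decide) (oZ a b hab).2.2.2.1 (oZ a b hab).2.2.2.2.1 (oZ a b hab).2.2.2.2.2 _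
          _).symm) A
    rw [hf]
    generalize xc RGDTwE6.hp (vec chevE6 6 70) c = u at k1 k3 ⊢
    generalize xc RGDTwE6.hp (vec chevE6 6 71) d = v at k2 k4 ⊢
    calc u * v * (φA A * φB A) = u * (v * φA A) * φB A := by group
      _ = (u * φA A) * (v * φB A) := by rw [k2]; group
      _ = φA A * (u * φB A) * v := by rw [k1, k4]; group
      _ = φA A * φB A * (u * v) := by rw [k3]; group
  have hfd : f (dg3 a (a ^ 3)) = th RGDTwE6.hp (sg a) := by
    rw [hf, phi_dg3 RGDTwE6.hp (by norm_num) ltA rtA.2.2.2 hA (i := (2 : Fin 6)) (j := (0 : Fin 6)) simp6.1 simp6.2.1,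
      phi_dg3 RGDTwE6.hp (by norm_num) ltB rtB.2.2.2 hB (i := (4 : Fin 6)) (j := (5 : Fin 6)) simp6.2.2.1 simp6.2.2.2,
      ← map_mul]
    rfl
  have e := f_tm h2 hA hB hf
  rw [tm_eq ha h2, map_mul, map_mul, map_inv, hfd] at e
  exact ⟨f (mP (a : K) ha h2), hfm _, fun z hz => hfz _ z hz, e.symm⟩

/-- **Fixed points of `W7`.** -/
theorem fix_W7 [Finite K] (h2 : (2 : K) = 0) {a : Kˣ} (ha : (a : K) ^ 3 = a + 1) {x : ↥(chevE6.group K)}
    (hx : x ∈ VJ CoxeterMatrix.E₆.toCoxeterSystem RGDTwE6.hp.isCartan (XX chevE6 6 K) J6)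
    (h : W7 K * x = x * W7 K) : x ∈ Z3 K := by
  obtain ⟨p, hpc⟩ := CharP.exists K
  have : Fact p.Prime := ⟨(CharP.char_is_prime_or_zero K p).resolve_right (CharP.char_ne_zero_of_finite K p)⟩
  have R := rgd (K := K) RGDTwE6.hp CoxeterMatrix.E₆.toCoxeterSystem p
  obtain ⟨g, hgm, hgz, e⟩ := exists_conj_t h2 ha
  have hgn : ∀ u ∈ LJ CoxeterMatrix.E₆.toCoxeterSystem RGDTwE6.hp.isCartan (TT chevE6 K) (XX chevE6 6 K) J6, ∀ y ∈
      VJ CoxeterMatrix.E₆.toCoxeterSystem RGDTwE6.hp.isCartan (XX chevE6 6 K) J6, u * y * u⁻¹ ∈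
      VJ CoxeterMatrix.E₆.toCoxeterSystem RGDTwE6.hp.isCartan (XX chevE6 6 K) J6 := by
    intro u hu y hy
    exact (Subgroup.mem_normalizer_iff.1 (LJ_le_normalizer_VJ R J6 hu) y).1 hy
  have hx' : g⁻¹ * x * g ∈ Z3 K := by
    refine fix_t (order_a h2 ha) ?_ ?_
    · have := hgn g⁻¹ (inv_mem hgm) x hx
      rwa [inv_inv] at this
    · rw [e] at h
      calc th RGDTwE6.hp (sg a) * (g⁻¹ * x * g) = g⁻¹ * (g * th RGDTwE6.hp (sg a) * g⁻¹ * x) * g := by group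
        _ = g⁻¹ * (x * (g * th RGDTwE6.hp (sg a) * g⁻¹)) * g := by rw [h]
        _ = _ := by group
  have h3 := hgz _ hx'
  have h4 : x = g⁻¹ * x * g := by
    calc x = g * (g⁻¹ * x * g) * g⁻¹ := by group
      _ = (g⁻¹ * x * g) * g * g⁻¹ := by rw [← h3]
      _ = g⁻¹ * x * g := by group
  rw [h4]
  exact hx'

theorem sg_pow (a : Kˣ) (h7 : a ^ 7 = 1) : sg a ^ 7 = 1 := by
  have e : ∀ (i : Fin 6) (u : Kˣ), u ^ 7 = 1 → (Pi.mulSingle i u : Fin 6 → Kˣ) ^ 7 = 1 := by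
    intro i u hu
    rw [← Pi.mulSingle_pow, hu, Pi.mulSingle_one]
  have h21 : (a ^ 3) ^ 7 = 1 := by rw [← pow_mul, mul_comm, pow_mul, h7, one_pow]
  unfold SevenA.sg
  rw [mul_pow, mul_pow, mul_pow, e 2 a h7, e 0 _ h21, e 4 a h7, e 5 _ h21, mul_one, mul_one]

theorem tab3 : chevE6.simple 3 < 72 ∧ ((chevE6.cartan 2 (chevE6.simple 3) + chevE6.cartan 4 (chevE6.simple 3)) +
    3 * (chevE6.cartan 0 (chevE6.simple 3) + chevE6.cartan 5 (chevE6.simple 3))) % 7 ≠ 0 := by decide +kernel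

/-- **The order of `W7`.** -/
theorem order_W7 (h2 : (2 : K) = 0) {a : Kˣ} (ha : (a : K) ^ 3 = a + 1) : orderOf (W7 K) = 7 := by
  have : Fact (Nat.Prime 7) := ⟨by norm_num⟩
  obtain ⟨g, -, -, e⟩ := exists_conj_t h2 ha
  refine orderOf_eq_prime_iff.2 ⟨?_, fun h1 => ?_⟩
  · rw [e, conj_pow, ← map_pow, sg_pow a (Units.ext (pow7 ha h2)), map_one, mul_one, mul_inv_cancel]
  · have ht1 : th RGDTwE6.hp (sg a) = 1 := by
      rw [h1] at e
      calc th RGDTwE6.hp (sg a) = g⁻¹ * (g * th RGDTwE6.hp (sg a) * g⁻¹) * g := by group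
        _ = 1 := by rw [← e]; group
    have ht : th RGDTwE6.hp (sg a) ∈ TT chevE6 K := (thT RGDTwE6.hp (sg a)).2
    have h4 := (act RGDTwE6.hp tab3.1 ht).2 1
    rw [ch_sg a tab3.1, ht1, one_mul, inv_one, mul_one, mul_one] at h4
    have h6 := xc_inj RGDTwE6.hp tab3.1 h4
    have h9 := orderOf_dvd_iff_zpow_eq_one.2 (Units.ext h6.symm)
    rw [order_a h2 ha] at h9
    exact tab3.2 (Int.emod_eq_zero_of_dvd h9)

end

end Cfsg.Agent.H903.QF.SevenB
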